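import Mathlib
import Cfsg.Agent.Lib.Helper99.SP8.Defs
import Cfsg.Agent.Lib.Helper99.PGB.Defs
import Cfsg.Agent.Lib.Helper66.SP8TORP
import Cfsg.Agent.Lib.Helper66.SP8TORM
import Cfsg.Agent.Lib.Helper66.SP8QADD

set_option autoImplicit false

universe u

namespace Cfsg.Agent.Lib.Helper18.SP8

open Module LinearMap QuadraticMap Cfsg.Agent.Lib.Helper48 Cfsg.Agent.Lib.Helper17 Cfsg.Agent.Lib.Helper99.SP8
  Cfsg.Agent.Lib.Helper99.PGB Cfsg.Agent.Lib.Helper66.SP8

theorem real_cop {A a b : ℕ} (hA : Even A) (hA1 : 1 ≤ A) (ha : a ∣ A - 1) (hb : b ∣ A + 1) :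
    Nat.Coprime a b := by
  have h1 : Nat.Coprime (A - 1) (A + 1) := by
    have h2 : A + 1 = 2 + (A - 1) := by omega
    rw [h2, Nat.coprime_add_self_right, Nat.coprime_two_right]
    obtain ⟨k, hk⟩ := hA
    exact ⟨k - 1, by omega⟩
  exact Nat.Coprime.coprime_dvd_left ha (Nat.Coprime.coprime_dvd_right hb h1)

/-- REAL -/
theorem real_list (F : Type u) [Field F] [Fintype F] [CharP F 2] :
    QT F false 4 (Fintype.card F ^ 4 + 1) ∧ QT F false 4 (Fintype.card F ^ 4 - 1) ∧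
    QT F false 4 ((Fintype.card F ^ 3 - 1) * (Fintype.card F + 1)) ∧
    QT F false 4 ((Fintype.card F ^ 3 + 1) * (Fintype.card F - 1)) := by
  have hq : Even (Fintype.card F) := by
    obtain ⟨n, -, hn⟩ := FiniteField.card F 2
    rw [hn]
    exact (Nat.even_pow.2 ⟨even_two, n.ne_zero⟩)
  have hq1 : 1 < Fintype.card F := Fintype.one_lt_card
  set q := Fintype.card F with hqdef
  refine ⟨QT_torus_minus F 4 (by norm_num), ?_, ?_, ?_⟩
  · have h := QT_add (QT_torus_plus F 2 (by norm_num)) (QT_torus_minus F 2 (by norm_num))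
    rw [← hqdef, (real_cop (A := q ^ 2) (Nat.even_pow.2 ⟨hq, by norm_num⟩) (Nat.one_le_pow _ _ (by omega))
      dvd_rfl dvd_rfl).lcm_eq_mul] at h
    have e : q ^ 4 - 1 = (q ^ 2 - 1) * (q ^ 2 + 1) := by
      have := Nat.sq_sub_sq (q ^ 2) 1
      rw [← pow_mul, one_pow] at this
      rw [this, mul_comm]
    rw [e]
    exact h
  · have h := QT_add (QT_torus_plus F 3 (by norm_num)) (QT_torus_minus F 1 (by norm_num))
    rw [← hqdef, pow_one, (real_cop (A := q ^ 3) (Nat.even_pow.2 ⟨hq, by norm_num⟩)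
      (Nat.one_le_pow _ _ (by omega)) dvd_rfl (by
        have := Odd.nat_add_dvd_pow_add_pow q 1 (n := 3) (by decide)
        rwa [one_pow] at this)).lcm_eq_mul] at h
    exact h
  · have h := QT_add (QT_torus_plus F 1 (by norm_num)) (QT_torus_minus F 3 (by norm_num))
    rw [← hqdef, pow_one, (real_cop (A := q ^ 3) (Nat.even_pow.2 ⟨hq, by norm_num⟩)
      (Nat.one_le_pow _ _ (by omega)) (by
        have := Nat.sub_dvd_pow_sub_pow q 1 3
        rwa [one_pow] at this) dvd_rfl).lcm_eq_mul, mul_comm] at h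
    exact h

end Cfsg.Agent.Lib.Helper18.SP8
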